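import Cfsg.Agent.Fusion.WC

/-! An axiomatic version of the ZJ-theorem. -/

set_option autoImplicit false
set_option linter.unusedSectionVars false

namespace Cfsg.Agent.Fusion

open Subgroup PLocal

variable {G : Type*} [Group G] [Finite G] {p : ℕ} [Fact p.Prime]

theorem fam_normal (hst : StabP p G) (hc : cz (pCore p G) ≤ pCore p G) (S : Sylow p G)
    {𝒜 : Set (Subgroup G)} (h𝒜 : ∀ A ∈ 𝒜, A ≤ S ∧ IsMulCommutative A) (hne : 𝒜.Nonempty)
    (hinv : ∀ Q ≤ (S : Subgroup G), (∃ A ∈ 𝒜, A ≤ Q) → nz Q ≤ nz (sInf {A | A ∈ 𝒜 ∧ A ≤ Q}))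
    (hrep : ∀ B ≤ (S : Subgroup G), ⁅⁅B, B⁆, B⁆ = ⊥ → (∃ A ∈ 𝒜, ⁅B, B⁆ ≤ A ∧ ¬ B ≤ A) →
      ∃ A ∈ 𝒜, ⁅B, B⁆ ≤ A ∧ ¬ B ≤ A ∧ B ≤ nz A) : (sInf 𝒜).Normal := by
  obtain ⟨A₀, hA₀⟩ := hne
  set Y := sInf 𝒜
  have hYc : IsMulCommutative Y := isMulCommutative_iff_le_cz.2 ((sInf_le hA₀).trans
    ((isMulCommutative_iff_le_cz.1 (h𝒜 _ hA₀).2).trans (cz_anti (sInf_le hA₀))))
  have hSY : (S : Subgroup G) ≤ nz Y := by
    have := (le_nz _).trans (hinv S le_rfl ⟨A₀, hA₀, (h𝒜 _ hA₀).1⟩)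
    rwa [show {A | A ∈ 𝒜 ∧ A ≤ S} = 𝒜 from Set.ext fun A => ⟨And.left, fun h => ⟨h, (h𝒜 _ h).1⟩⟩]
      at this
  have key : ∀ B : Subgroup G, B.Normal → IsPGroup p B → (B ⊓ Y).Normal := by
    intro B
    induction B using up_induction with
    | h B ih =>
    intro _ hB
    have ih' : ∀ (C : Subgroup G) [C.Normal], C < B → (C ⊓ Y).Normal := fun C _ hC =>
      ih _ (card_lt_of_lt hC) inferInstance (hB.to_le hC.le)
    have hBS : B ≤ S := LocalEven.normal_le_sylow inferInstance hB S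
    by_cases hbot : B = ⊥
    · rw [hbot, bot_inf_eq]; infer_instance
    rcases (normalClosure_le_normal (N := B) (s := (B ⊓ Y : Subgroup G)) inf_le_left).lt_or_eq with
      hlt | hB1
    · have h1 := ih' _ hlt
      have h2 : normalClosure ((B ⊓ Y : Subgroup G) : Set G) ⊓ Y = B ⊓ Y :=
        le_antisymm (inf_le_inf_right _ hlt.le) (le_inf le_normalClosure inf_le_right)
      rwa [h2] at h1
    have hgen : ∀ (K : Subgroup G) [K.Normal], B ⊓ Y ≤ K → B ≤ K := fun K _ h =>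
      hB1 ▸ normalClosure_le_normal h
    haveI hW : (⁅B, B⁆ ⊓ Y).Normal := ih' _ (Core.commutator_lt_of_solvable
      (Core.solvable_of_isPGroup hB) hbot)
    have hder : ⁅B, B⁆ ≤ ⁅B, B⁆ ⊓ Y := by
      haveI : (LocalEven.centMod B (⁅B, B⁆ ⊓ Y)).Normal := Core.normal_of_le_normalizer
        (LocalEven.le_normalizer_centMod le_normalizer_of_normal le_normalizer_of_normal)
      refine (LocalEven.le_centMod.1 (hgen _ (LocalEven.le_centMod.2
        ⟨le_normalizer_of_normal, le_inf (commutator_mono le_rfl inf_le_left) ?_⟩))).2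
      exact (commutator_mono le_rfl inf_le_right).trans
        (LocalEven.commutator_le_right_of_le_normalizer (hBS.trans hSY))
    have hderY : ⁅B, B⁆ ≤ Y := hder.trans inf_le_right
    have hcl : ⁅⁅B, B⁆, B⁆ = ⊥ := by
      rw [commutator_comm, LocalEven.commutator_eq_bot_iff]
      exact hgen _ (inf_le_right.trans ((le_centralizer (H := Y) (h := hYc)).trans
        (centralizer_le hderY)))
    set L := (normalizer ((B ⊓ Y : Subgroup G) : Set G)).normalCore with hL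
    have hLn : L ≤ normalizer ((B ⊓ Y : Subgroup G) : Set G) := normalCore_le _
    have hquad : ∀ A ∈ 𝒜, B ≤ nz A → A ≤ L := by
      intro A hA hDA
      have hKL : (pCore p (G ⧸ centralizer (B : Set G))).comap
          (QuotientGroup.mk' (centralizer (B : Set G))) ≤ L := by
        rw [hL, normal_le_normalCore]
        refine (le_sup_of_pow_mem S (C := centralizer (B : Set G)) fun k hk =>
          exists_pow_mem_of_mk_mem (p := p) hk).trans (sup_le ?_ ?_)
        · exact (centralizer_le (inf_le_left : B ⊓ Y ≤ B)).trans (centralizer_le_normalizer _)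
        · exact Core.le_normalizer_inf le_normalizer_of_normal (inf_le_left.trans hSY)
      exact le_trans (fun a ha => hst B hB a (isPGroup_iff.1 S.isPGroup' a ((h𝒜 _ hA).1 ha))
        (quad_of_abelian_normalized (h𝒜 _ hA).2 hDA ha)) hKL
    have hsyl := LocalEven.sylow_inf_normal S L
    have hin : ∀ A ∈ 𝒜, A ≤ L → B ≤ A := by
      intro A hA hAL
      have hA' : A ≤ (S : Subgroup G) ⊓ L := le_inf (h𝒜 _ hA).1 hAL
      rw [← hB1, LocalEven.normalClosure_eq_iSup_cj, iSup_le_iff]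
      intro g
      obtain ⟨x, hx, l, hl, rfl⟩ := hsyl.frattini' (g := g) (le_normalizer_of_normal (K := ⊤) trivial)
      rw [LocalEven.cj_mul, LocalEven.cj_eq_of_mem_normalizer (hLn hl)]
      exact (LocalEven.cj_le_of_mem_normalizer (hinv _ inf_le_left ⟨A, hA, hA'⟩ hx)
        (inf_le_right.trans (sInf_le_sInf fun _ h => h.1))).trans (sInf_le ⟨hA, hA'⟩)
    rwa [inf_eq_left.2 (le_sInf fun U hU => by
      by_contra hn
      obtain ⟨A, hA, -, h2, h3⟩ := hrep B hBS hcl ⟨U, hU, hderY.trans (sInf_le hU), hn⟩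
      exact h2 (hin A hA (hquad A hA h3)))]
  have h1 := key _ inferInstance (Core.pCore_isPGroup p)
  rwa [inf_eq_right.2 (hst.abelian_le_pCore hc (S.isPGroup'.to_le ((sInf_le hA₀).trans (h𝒜 _ hA₀).1))
    hYc ((Core.pCore_le_sylow S).trans hSY))] at h1

theorem im_sInf {Ω : Type*} [Group Ω] {U : Subgroup Ω} {ι : U →* G} (hι : Function.Injective ι)
    {s : Set (Subgroup Ω)} (hne : s.Nonempty) (h : ∀ A ∈ s, A ≤ U) :
    im ι (sInf s) = sInf (im ι '' s) := by
  obtain ⟨A, hA⟩ := hne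
  refine le_antisymm (le_sInf (by rintro _ ⟨B, hB, rfl⟩; exact im_mono ι (sInf_le hB))) fun x hx => ?_
  obtain ⟨y, hy, rfl⟩ := (mem_im (h A hA)).1 (sInf_le (Set.mem_image_of_mem (im ι) hA) hx)
  exact fn_mem_im ι (mem_sInf.2 fun B hB => (fn_mem_im_iff hι (h A hA hy)).1
    (sInf_le (Set.mem_image_of_mem (im ι) hB) hx))

end Cfsg.Agent.Fusion
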