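import Cfsg.Agent.Fusion.Model2

/-! Averaging: a cocycle with values in an abelian normal `p`-subgroup that vanishes on a subgroup of
index prime to `p` is a coboundary. -/

set_option autoImplicit false
set_option linter.unusedSectionVars false

namespace Cfsg.Agent.Fusion

variable {G : Type*} [Group G] [Finite G]

theorem exists_cobdry {A T : Subgroup G} [A.Normal] (hA : A ≤ cz A)
    (hc : (Nat.card A).Coprime T.index) (d : G → G) (hd : ∀ g, d g ∈ A)
    (hm : ∀ g h, d (g * h) = d g * (g * d h * g⁻¹)) (hT : ∀ t ∈ T, d t = 1) :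
    ∃ z ∈ A, ∀ g, d g = z * (g * z⁻¹ * g⁻¹) := by
  classical
  haveI : IsMulCommutative A := isMulCommutative_iff_le_cz.2 hA
  letI : CommGroup A := IsMulCommutative.instCommGroup
  haveI : Fintype (G ⧸ T) := Fintype.ofFinite _
  let D : G ⧸ T → A := fun x => ⟨d x.out, hd _⟩
  have hD : ∀ g : G, D (g : G ⧸ T) = ⟨d g, hd g⟩ := by
    intro g
    obtain ⟨t, ht⟩ := QuotientGroup.mk_out_eq_mul T g
    apply Subtype.ext
    show d _ = d g
    rw [ht, hm, hT _ t.2]; simp
  let a : A := ∏ x, D x
  have key : ∀ g : G, a = (⟨d g, hd g⟩ : A) ^ T.index * MulAut.conjNormal g a := by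
    intro g
    have h1 : a = ∏ x : G ⧸ T, D (g • x) := (Equiv.prod_comp (MulAction.toPerm g) D).symm
    have h2 : ∀ x : G ⧸ T, D (g • x) = (⟨d g, hd g⟩ : A) * MulAut.conjNormal g (D x) := by
      intro x
      induction x using QuotientGroup.induction_on with
      | H y =>
        have : g • (y : G ⧸ T) = ((g * y : G) : G ⧸ T) := rfl
        rw [this, hD, hD]
        apply Subtype.ext
        simp [hm]
    refine h1.trans ?_
    rw [Finset.prod_congr rfl (fun x _ => h2 x), Finset.prod_mul_distrib, Finset.prod_const,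
      ← map_prod, Finset.card_univ, ← Nat.card_eq_fintype_card]
    rfl
  have hb := (powCoprime hc).bijective
  obtain ⟨z, hz⟩ := hb.2 a
  refine ⟨z, z.2, fun g => ?_⟩
  have h3 : (⟨d g, hd g⟩ : A) = z * (MulAut.conjNormal g z)⁻¹ := by
    apply hb.1
    have hz' : z ^ T.index = a := hz
    show (⟨d g, hd g⟩ : A) ^ T.index = (z * (MulAut.conjNormal g z)⁻¹) ^ T.index
    rw [mul_pow, inv_pow, ← map_pow, hz', eq_mul_inv_iff_mul_eq, ← key]
  have := congrArg Subtype.val h3
  simpa [mul_assoc] using this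

end Cfsg.Agent.Fusion
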