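import Cfsg.Agent.Fusion.Wedge

/-! Reduction to normal subsystems. -/

set_option autoImplicit false
set_option linter.unusedSectionVars false

namespace Cfsg.Agent.Fusion

/-- A form of `p`-solvability of the section `A / E`. -/
def PSo {G : Type*} [Group G] (p : ℕ) (A E : Subgroup G) : Prop :=
  ∀ K, K ≤ A → ¬ K ≤ E → ¬ K ≤ pres p K ⊔ E ∨ ¬ K ≤ pres' p K ⊔ E

theorem pso_of_quot {G : Type*} [Group G] [Finite G] {p : ℕ} [Fact p.Prime] {A E : Subgroup G}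
    (hE : E ≤ A) [(E.subgroupOf A).Normal] (h : IsPSolvable p (A ⧸ E.subgroupOf A)) : PSo p A E := by
  intro K h1 h2
  have k : ∀ X : Subgroup A, K ≤ X.map A.subtype ⊔ E →
      (K.subgroupOf A).map (QuotientGroup.mk' (E.subgroupOf A)) ≤ X.map (QuotientGroup.mk' _) :=
    fun X hX => by
      rw [Subgroup.map_le_map_iff, QuotientGroup.ker_mk',
        ← Subgroup.map_le_map_iff_of_injective A.subtype_injective, Subgroup.map_sup,
        map_subgroupOf_subtype h1, map_subgroupOf_subtype hE]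
      exact hX
  refine (pres_lt_or (Core.IsPSolvable.subgroup h ((K.subgroupOf A).map (QuotientGroup.mk' _)))
    fun e => h2 fun x hx => by
      rw [Subgroup.map_eq_bot_iff, QuotientGroup.ker_mk'] at e
      exact e (x := ⟨x, h1 hx⟩) hx).imp (fun a b => a.not_ge ?_) fun a b => a.not_ge ?_
  · rw [← map_pres]; exact k _ (by rwa [map_pres, map_subgroupOf_subtype h1])
  · rw [← map_pres']; exact k _ (by rwa [map_pres', map_subgroupOf_subtype h1])

theorem Rep.pso {Ω G : Type*} [Group Ω] [Group G] [Finite G] {U S T : Subgroup Ω} {ι : U →* G}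
    {F : FusionSystem S} {E : FusionSystem T} {F' E' : FS G} {p : ℕ} [Fact p.Prime] (r : Rep ι F F')
    (s : Rep ι E E') (hle : E' ≤ F') [((E.autGroup T).subgroupOf (F.autGroup T)).Normal]
    (h : IsPSolvable p (F.autGroup T ⧸ (E.autGroup T).subgroupOf (F.autGroup T))) :
    PSo p (F'.aut E'.S) (E'.aut E'.S) := by
  haveI := finite_of_inj r.inj s.le
  haveI := finite_mulAut T
  have k := pso_of_quot ((s.aut_le_iff r s.le).2 (FS.aut_mono hle _)) h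
  rw [r.autGroup_eq s.le, s.autGroup_eq s.le] at k
  rw [s.S_eq]
  intro K h1 h2
  have h3 := h1.trans (F'.aut_le_nz _)
  have h4 := E'.cz_le_aut (im ι T)
  refine (k _ (dn_mono _ h1) (by rwa [dn_le_iff _ h3 h4])).imp (fun a b => a ?_) fun a b => a ?_
  · rwa [← dn_pres _ h3, ← dn_sup _ ((pres_le _).trans h3) (E'.aut_le_nz _),
      dn_le_iff _ h3 (h4.trans le_sup_right)]
  · rwa [← dn_pres' _ h3, ← dn_sup _ ((pres'_le _).trans h3) (E'.aut_le_nz _),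
      dn_le_iff _ h3 (h4.trans le_sup_right)]

namespace FS

universe u

variable {G : Type u} [Group G] [Finite G] {F E D A B : FS G}
  {P Q R T U V W X Y H K L N : Subgroup G} {a b c g h k s x σ φ ψ : G} {p : ℕ} [hp : Fact p.Prime]

/-- Equal to both residual subsystems. -/
def Stb (p : ℕ) (B : FS G) : Prop := B.hyp p = B.S ∧ B.QRes p B

theorem Stb.subN_of (hB : Stb p B) (h : SubN p B F) (hE : NorIn p E F) (hr : Rich F.S)
    (hS : B.S ≤ E.S) : SubN p B E := by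
  obtain ⟨W, w1, w2, w3⟩ := h.exists_wedge hE hr
  rwa [le_antisymm w1.wn.invt.le (hB.2.le_of_invt hB.2.1 w1.wn.satE w1.wn.invt
    (w3.trans (inf_eq_left.2 hS)))] at w2

theorem RL.stb (h : RL p A F) : Stb p A := by
  induction h with
  | stable a b => exact ⟨a, b⟩
  | step _ _ _ _ _ _ ih => exact ih

theorem RL.subN (h : RL p A F) (hF : F.Sat p) : SubN p A F := by
  induction h with
  | stable => exact SubN.refl _
  | step _ _ _ a b _ ih => exact ((ih b.1).step (b.norIn a.2.1)).step (a.norIn hF)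

theorem RL.max (h : RL p A F) (hF : F.Sat p) (hr : Rich F.S) (hB : Stb p B) (h1 : SubN p B F) :
    SubN p B A := by
  induction h with
  | stable => exact h1
  | step _ _ _ a b _ ih =>
    have h2 := hB.subN_of h1 (a.norIn hF) hr (by rw [a.1, ← hB.1]; exact hyp_mono h1.le)
    have h3 := hr.mono (S_le a.2.2.1)
    exact ih b.1 (h3.mono b.2.1.1.le) (hB.subN_of h2 (b.norIn a.2.1) h3 (b.2.1.1 ▸ S_le h2.le))

theorem RL.same (h : RL p A F) (h' : RL p B E) (hE : NorIn p E F) (hr : Rich F.S)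
    (h1 : SubN p A E) : B = A :=
  le_antisymm (h.max hE.wn.satF hr h'.stb ((h'.subN hE.wn.satE).step hE)).le
    (h'.max hE.wn.satE (hr.mono hE.wn.invt.S_le) h.stb h1).le

theorem NorIn.of_le (h : NorIn p E F) (hD : D.Sat p) (h1 : E ≤ D) (h2 : D ≤ F)
    (h3 : F.S ⊓ cz E.S ≤ D.S) (h4 : ∀ b ∈ F.aut (E.S ⊔ (F.S ⊓ cz E.S)), (orderOf b).Coprime p →
      b ∈ E.aut E.S → b ∈ D.aut (E.S ⊔ (F.S ⊓ cz E.S))) : NorIn p E D := by
  refine ⟨⟨h.wn.satE, hD, h.wn.invt.of_le hD h1 h2⟩, h.wn.satE.extc_of_cop (S_le h1)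
    fun a ha hc => ?_⟩
  obtain ⟨b, b1, b2, b3, b4⟩ := exists_cop_of_exb (extc_iff.1 h.extc ha) hc
  have e : D.S ⊓ cz E.S = F.S ⊓ cz E.S :=
    le_antisymm (inf_le_inf_right _ (S_le h2)) (le_inf h3 inf_le_right)
  exact mem_exb_of (e ▸ h4 b b1 b3 (by simpa using mul_mem ha (E.cz_le_aut _ b4))) (e ▸ b2) b4

theorem cj_aut_of (h1 : FS.cjs a F = F) (h2 : FS.cjs a E = E) : cj a (F.aut E.S) = F.aut E.S := by
  rw [← cjs_aut, h1, ← cjs_S, h2]

theorem NorIn.exists_step (h : NorIn p E F) (hs : PSo p (F.aut E.S) (E.aut E.S))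
    (hn : ¬ F.aut E.S ≤ E.aut E.S) : ∃ D, NorIn p D F ∧ D < F ∧ NorIn p E D ∧ F.S ⊓ cz E.S ≤ D.S ∧
      F.hyp p ≤ D.S ∧ ∀ a, FS.cjs a F = F → FS.cjs a E = E → FS.cjs a D = D := by
  have hF := h.wn.satF
  have i := h.wn.invt
  have s1 : F.S ≤ F.aut E.S := (le_inf le_rfl i.sc.S_le_nz).trans (NS_le_aut i.S_le)
  have s2 := i.aut_normal le_rfl
  rcases hs _ le_rfl hn with k | k
  · have k1 : F.aut E.S ≤ nz (Fusion.pres p (F.aut E.S) ⊔ E.aut E.S) :=
      fun _ hx => mem_nz_sup (nz_le_nz_pres _ (le_nz _ hx)) (s2 hx)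
    obtain ⟨D, d1, d2, d3⟩ := hF.exists_ppi (T := F.S ⊓ (Fusion.pres p (F.aut E.S) ⊔ E.aut E.S))
      (le_inf (F.hyp_le p) ((hF.hyp_le_of_sc i.sc).trans (sup_le_sup_left (aiS_le_aut le_rfl) _)))
      inf_le_left
    have d4 : F.S ⊓ E.aut E.S ≤ D.S := d1 ▸ inf_le_inf_left _ le_sup_right
    have d5 : E.S ≤ D.S := (le_inf i.S_le ((le_ai_self _).trans (aiS_le_aut le_rfl))).trans d4
    have d6 := (inf_le_inf_left _ (E.cz_le_aut _)).trans d4
    refine ⟨D, d3.norIn hF d2 (d1 ▸ fun x hx => mem_nz_inf (le_nz _ hx) (k1 (s1 hx))),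
      lt_of_le_of_ne d3.1 fun e => k ?_, h.of_le d2 (d3.le_of h.wn.satE i.le d5) d3.1 d6
        fun b b1 b2 _ => d3.2.2 _ (sup_le d5 d6) (mem_pres b1 b2), d6, d3.2.1, fun a a1 a2 =>
      d3.unique (a1 ▸ d3.cjs a) d2 (d2.cjs a) ?_⟩
    · refine (hF.aut_le_pres i.sc.fn).trans (sup_le ?_ le_sup_left)
      rw [ai_eq]
      exact sup_le (inf_le_left.trans ((e ▸ d1).le.trans inf_le_right))
        ((E.cz_le_aut _).trans le_sup_right)
    · rw [cjs_S, d1, cj_inf, cj_sup, cj_pres, cj_aut_of a1 a2, cj_aut_of a2 a2, ← cjs_S, a1]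
  · obtain ⟨D, d1, d2, d3, d4⟩ := i.exists_pqi (K := pres' p (F.aut E.S) ⊔ E.aut E.S) hF h.wn.satE
      le_sup_right (sup_le (pres'_le _) (aut_mono i.le _))
      (fun _ hx => mem_nz_sup (nz_le_nz_pres' _ (le_nz _ hx)) (s2 hx))
      ((le_pres'_of_pg s1 hF.pg).trans le_sup_left)
    have j := d1.wn.invt
    refine ⟨D, d1, lt_of_le_of_ne j.le fun e => k fun g hg => (d4 _ g le_rfl (M_of_aut i.S_le hg)).1
      (e ▸ M_of_aut i.S_le hg), h.of_le d1.wn.satE d3 j.le (d2 ▸ inf_le_left) fun b b1 _ b3 =>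
        mem_aut_of ((d4 _ b le_sup_left (M_of_aut (sup_CS_le i.S_le) b1)).2
          (Subgroup.mem_sup_right b3)) (F.aut_le_nz _ b1), d2 ▸ inf_le_left, d2 ▸ F.hyp_le p,
      fun a a1 a2 => cjs_eq_of_le ?_⟩
    have e : cj a D.S = D.S := by rw [d2, ← cjs_S, a1]
    have l : FS.cjs a D ≤ F := a1 ▸ cjs_mono a j.le
    refine (d1.wn.satE.cjs a).alperin' e.le (fun g hg => ?_) fun P hP =>
      j.pres'_le (d1.wn.satE.cjs a) l e.le hP.le
    have g1 := M_of_aut le_rfl hg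
    refine mem_aut_of ((d4 _ g (S_le d3 |>.trans e.ge) (l _ _ g1)).2 ?_) (FS.aut_le_nz _ _ hg)
    rw [← cj_aut_of a1 a2, ← cj_aut_of a2 a2, ← cj_pres', ← cj_sup, mem_cj]
    rw [cjs_M, cjs_S, cj_inv_cj] at g1
    exact (d4 _ _ (S_le d3) (j.le _ _ g1)).1 g1

theorem NorIn.exists_env (h : NorIn p E F) (hr : Rich F.S) (hs : PSo p (F.aut E.S) (E.aut E.S)) :
    ∃ D, NorIn p D F ∧ D.S = E.S ⊔ (F.S ⊓ cz E.S) ∧ E ≤ D ∧ D.aut E.S = E.aut E.S ∧
      (∀ B, Stb p B → SubN p B F → SubN p B D) ∧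
        ∀ a, FS.cjs a F = F → FS.cjs a E = E → FS.cjs a D = D := by
  induction F using lt_ind with | h F ih => ?_
  have i := h.wn.invt
  by_cases hn : F.aut E.S ≤ E.aut E.S
  · refine ⟨F, h.wn.satF.norIn_self, le_antisymm ?_ (sup_CS_le i.S_le), i.le,
      le_antisymm hn (aut_mono i.le _), fun _ _ => id, fun _ a _ => a⟩
    rw [← S_inf_ai_self i.S_le]
    exact le_inf le_rfl ((le_inf le_rfl (((le_inf le_rfl i.sc.S_le_nz).trans
      (NS_le_aut i.S_le)).trans hn)).trans (i.sc.S_inf_aut_le h.wn.satF.pg (h.wn.satE.fa E.FN_S)))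
  obtain ⟨D, d1, d2, d3, d4, d5, d6⟩ := h.exists_step hs hn
  obtain ⟨A, a1, a2, a3, a4, a5, a6⟩ := ih D d2 d3 (hr.mono (S_le d2.le))
    fun K k => hs K (k.trans (aut_mono d2.le _))
  refine ⟨A, a1.trans' d1 hr fun a ha => (a6 a (d1.wn.invt.cjs_eq ha) (i.cjs_eq (aut_restrict
    (S_le d2.le) ha d3.wn.invt.S_le (i.sc.wc.aut_le (S_le d2.le) d3.wn.invt.S_le ha)))).le,
    a2.trans (by rw [le_antisymm (inf_le_inf_right _ (S_le d2.le)) (le_inf d4 inf_le_right)]), a3, a4,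
    fun B b1 b2 => a5 B b1 (b1.subN_of b2 d1 hr (b1.1.ge.trans ((hyp_mono b2.le).trans d5))),
    fun a e1 e2 => a6 a (d6 a e1 e2) e2⟩

theorem NorIn.foc_le_of_env (h : NorIn p E F) (hr : Rich F.S) (hc : F.cse E ≤ E.S) (hD : D.Sat p)
    (h1 : D ≤ F) (h2 : D.S = E.S ⊔ (F.S ⊓ cz E.S)) (h3 : D.aut E.S ≤ E.aut E.S) : D.foc ≤ E.S := by
  have i := h.wn.invt
  have hT := i.sc.of_le' h1 (h2 ▸ le_sup_left)
  refine foc_le_iff.2 fun P g hg x hx => ?_
  obtain ⟨k, k1, k2⟩ := hD.lift hT hg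
  obtain ⟨c, c1, c2, c3⟩ := mem_exb.1 (extc_iff.1 h.extc (h3 (mem_aut_of (D.mono k1 le_sup_right)
    (hT.mem_nz k1 le_sup_right))))
  have c4 : F.M (P ⊔ E.S) c⁻¹ := of_mul_left (h := k * c) (by simpa using h1 _ _ k1)
    (M_of_aut (sup_CS_le i.S_le) c2) (by
      rw [← cj_le_cj (g := k * c), cj_of_nz (F.aut_le_nz _ c2), ← cj_mul, mul_inv_cancel_right, ← h2]
      exact D.cj_le k1)
  have x1 : x ∈ E.S ⊔ (F.S ⊓ cz E.S) := h2 ▸ D.le_S hg hx
  obtain ⟨t, t1, y, y1, rfl⟩ := (mem_sup_of_nz' (inf_le_right.trans (cz_le_nz _))).1 x1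
  have y2 : y ∈ P ⊔ E.S := mem_of_eq (mul_mem (inv_mem (Subgroup.mem_sup_right t1))
    (Subgroup.mem_sup_left hx)) (by group)
  have y3 := hc (h.foc_CF_le hr (mem_foc (normK_M_of i.S_le (cz_le_nz _) (Subgroup.zpowers_le.2 y1.2)
    (inv_mem c1) (F.mono c4 (sup_le (Subgroup.zpowers_le.2 y2) le_sup_right)))
      (Subgroup.mem_zpowers y)))
  have y4 := conj_eq_of_cz' c1 t1
  refine mem_of_eq (mul_mem (mul_mem ((mem_trv.1 c3).2 _ x1) (conj_mem_of_nz (trv_le_nz _ _ c3) y3))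
    (inv_mem (k2 _ hx))) ?_
  generalize hu : c⁻¹ * t * c = u at y4
  calc _ = (t * y)⁻¹ * k * (c * t * c⁻¹) * (c * u * c⁻¹)⁻¹ * k⁻¹ * (g * (t * y) * g⁻¹) := by
        rw [← hu]; group
    _ = _ := by rw [y4]; group

theorem NorIn.rl_same (h : NorIn p E F) (hr : Rich F.S) (hc : F.cse E ≤ E.S)
    (hs : PSo p (F.aut E.S) (E.aut E.S)) (hA : RL p A F) (hB : RL p B E) : B = A := by
  obtain ⟨D, d1, d2, -, d4, d5, -⟩ := h.exists_env hr hs
  have a1 := hA.subN h.wn.satF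
  exact hA.same hB h hr (hA.stb.subN_of a1 h hr (hA.stb.1.ge.trans ((hyp_mono (d5 A hA.stb a1).le).trans
    ((hyp_le_foc _ _).trans (h.foc_le_of_env hr hc d1.wn.satE d1.wn.invt.le d2 d4.le)))))

end FS

end Cfsg.Agent.Fusion
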